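import Mathlib
import Cfsg.Agent.UL.Blocks
import Cfsg.Agent.Char.ClassSum
import Cfsg.Agent.Block.ModExists
import Cfsg.Agent.Block.DefectNum

/-!
Products of two conjugacy classes: Gow's theorem on regular semisimple classes and the crude
character bound.
-/

set_option autoImplicit false
set_option linter.unusedSectionVars false

namespace Cfsg.Agent.UL

open Cfsg Cfsg.Agent.St Cfsg.Agent.Block Cfsg.Agent.Char Subgroup
open scoped ComplexConjugate

section General

variable {G : Type*} [Group G] [Fintype G]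

theorem sum_eq_zero_of_not_mul {x y g : G} (h : ∀ u v : G, g ≠ u * x * u⁻¹ * (v * y * v⁻¹)) :
    ∑ χ : IrrCharacter G,
      (χ : G → ℂ) x * (χ : G → ℂ) y * conj ((χ : G → ℂ) g) / (χ : G → ℂ) 1 = 0 := by
  have h1 := card_class_pairs x y g
  have : IsEmpty {p : G × G // IsConj x p.1 ∧ IsConj y p.2 ∧ p.1 * p.2 = g} := by
    constructor
    rintro ⟨⟨a, b⟩, ha, hb, e⟩
    obtain ⟨u, rfl⟩ := isConj_iff.1 ha
    obtain ⟨v, rfl⟩ := isConj_iff.1 hb
    exact h u v e.symm
  rw [Nat.card_of_isEmpty, Nat.cast_zero, eq_comm, mul_eq_zero] at h1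
  refine h1.resolve_left (div_ne_zero (mul_ne_zero ?_ ?_) ?_)
  · have : Nonempty {z : G // IsConj x z} := ⟨⟨x, IsConj.refl x⟩⟩
    exact_mod_cast Nat.card_pos.ne'
  · have : Nonempty {z : G // IsConj y z} := ⟨⟨y, IsConj.refl y⟩⟩
    exact_mod_cast Nat.card_pos.ne'
  · exact_mod_cast Nat.card_pos.ne'

theorem sum_normSq (x : G) : ∑ χ : IrrCharacter G, ‖(χ : G → ℂ) x‖ ^ 2 =
    Nat.card (centralizer ({x} : Set G)) := by
  have h := sum_irr_mul_conj_of_isConj (IsConj.refl x)
  simp only [Complex.mul_conj, Complex.normSq_eq_norm_sq] at h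
  exact_mod_cast h

theorem norm_sq_le (χ : IrrCharacter G) (x : G) :
    ‖(χ : G → ℂ) x‖ ^ 2 ≤ Nat.card (centralizer ({x} : Set G)) := by
  rw [← sum_normSq]
  exact Finset.single_le_sum (f := fun χ : IrrCharacter G => ‖(χ : G → ℂ) x‖ ^ 2)
    (fun _ _ => by positivity) (Finset.mem_univ χ)

/-- The crude character bound: if centralizers are small compared with the least degree `d` of
a non-principal irreducible character, then `g` is a product of two conjugates of `x`. -/
theorem exists_mul_of_degree {d c r : ℕ}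
    (hd : ∀ χ : G → ℂ, IsIrrCharacter G χ → χ ≠ (fun _ => 1) → d ≤ (χ 1).re) {x g : G}
    (hx : Nat.card (centralizer ({x} : Set G)) ≤ c + 1)
    (hg : Nat.card (centralizer ({g} : Set G)) ≤ r ^ 2) (h : c * r < d) :
    ∃ u v : G, g = u * x * u⁻¹ * (v * x * v⁻¹) := by
  classical
  by_contra! hc
  have h1 := sum_eq_zero_of_not_mul hc
  set o : IrrCharacter G := ⟨fun _ => 1, isIrrCharacter_one⟩ with ho
  rw [← Finset.add_sum_erase _ _ (Finset.mem_univ o)] at h1
  have h2 := sum_normSq x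
  rw [← Finset.add_sum_erase _ _ (Finset.mem_univ o)] at h2
  simp only [ho, mul_one, map_one, div_one, norm_one, one_pow] at h1 h2
  have hd0 : (0 : ℝ) < d := by exact_mod_cast (Nat.zero_le _).trans_lt h
  have h3 : ∀ χ ∈ Finset.univ.erase o,
      ‖(χ : G → ℂ) x * (χ : G → ℂ) x * conj ((χ : G → ℂ) g) / (χ : G → ℂ) 1‖ ≤
        ‖(χ : G → ℂ) x‖ ^ 2 * (r / d) := by
    intro χ hχ
    have h4 := hd χ χ.2 fun e => (Finset.mem_erase.1 hχ).1 (Subtype.ext e)
    have h5 : ‖(χ : G → ℂ) g‖ ≤ r := by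
      refine (abs_le_of_sq_le_sq' ((norm_sq_le χ g).trans ?_) (by positivity)).2
      exact_mod_cast hg
    rw [norm_div, norm_mul, norm_mul, Complex.norm_conj, ← sq, mul_div_assoc]
    gcongr
    exact h4.trans (Complex.re_le_norm _)
  have h6 := (norm_sum_le _ _).trans (Finset.sum_le_sum h3)
  rw [← Finset.sum_mul, eq_neg_of_add_eq_zero_right h1, norm_neg, norm_one] at h6
  have h7 : ∑ χ ∈ Finset.univ.erase o, ‖(χ : G → ℂ) x‖ ^ 2 ≤ c := by
    have : (Nat.card (centralizer ({x} : Set G)) : ℝ) ≤ c + 1 := by exact_mod_cast hx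
    linarith
  have h8 : (c : ℝ) * (r / d) < 1 := by
    rw [← mul_div_assoc, div_lt_one hd0]
    exact_mod_cast h
  have : (∑ χ ∈ Finset.univ.erase o, ‖(χ : G → ℂ) x‖ ^ 2) * (r / d) ≤ c * (r / d) := by gcongr
  linarith

end General

variable {p : ℕ} [hp : Fact p.Prime] {G ι W : Type*} [Group G] [Group W] (T : Split p G ι W)
  [Finite G]

/-- Gow's theorem. -/
theorem gow [Nonempty ι] (hI : Irred T.toTits) (hc : T.B.normalCore = ⊥)
    (hG : closure {g : G | ∃ k, orderOf g = p ^ k} = ⊤) {x y g : G}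
    (hx : ¬ p ∣ Nat.card (centralizer ({x} : Set G)))
    (hy : ¬ p ∣ Nat.card (centralizer ({y} : Set G))) (hg : ¬ p ∣ orderOf g) (h1 : g ≠ 1) :
    ∃ u v : G, g = u * x * u⁻¹ * (v * y * v⁻¹) := by
  classical
  have := Fintype.ofFinite G
  have := finite_ι T.toTits
  have := Fintype.ofFinite ι
  obtain ⟨M, hM⟩ := exists_isPModular hp.out
  by_contra! hcon
  have h2 := congrArg (((centralizer ({g⁻¹} : Set G)).index : ℂ) * ·) (sum_eq_zero_of_not_mul hcon)
  simp only [Finset.mul_sum, mul_zero] at h2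
  have h3 : ∀ χ : IrrCharacter G, ((centralizer ({g⁻¹} : Set G)).index : ℂ) *
      ((χ : G → ℂ) x * (χ : G → ℂ) y * conj ((χ : G → ℂ) g) / (χ : G → ℂ) 1) =
      (χ : G → ℂ) x * (χ : G → ℂ) y * centralChar (χ : G → ℂ) g⁻¹ := fun χ => by
    rw [centralChar, χ.2.map_inv]; ring
  simp only [h3] at h2
  set s : IrrCharacter G := ⟨T.steinberg, T.isIrr_steinberg⟩ with hs
  rw [← Finset.add_sum_erase _ _ (Finset.mem_univ s)] at h2
  have hg' : ¬ p ∣ orderOf g⁻¹ := by rwa [orderOf_inv]
  have hst : ∀ z : G, ¬ p ∣ orderOf z → val M (T.steinberg z) =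
      val M p ^ (Nat.card (centralizer ({z} : Set G))).factorization p := fun z hz => by
    rcases T.steinberg_apply_of_not_dvd hz with e | e <;> simp [e]
  have hreg : ∀ z : G, ¬ p ∣ Nat.card (centralizer ({z} : Set G)) →
      val M (T.steinberg z) = 1 := fun z hz => by
    rw [hst z fun h => hz (h.trans (Subgroup.orderOf_dvd_natCard _ (mem_centralizer_singleton_iff.2 rfl))),
      Nat.factorization_eq_zero_of_not_dvd hz, pow_zero]
  have h4 : val M ((s : G → ℂ) x * (s : G → ℂ) y * centralChar (s : G → ℂ) g⁻¹) = 1 := by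
    simp only [hs, map_mul, hreg x hx, hreg y hy, one_mul, centralChar, map_div₀, hst _ hg',
      T.steinberg_one, T.card_U]
    rw [val_natCast_eq_pow hM index_ne_zero_of_finite, ← pow_add, add_comm,
      factorization_card_centralizer_add_index, Nat.cast_pow, map_pow,
      div_self (pow_ne_zero _ (val_prime_pos hM).ne')]
  have h5 : val M (∑ χ ∈ Finset.univ.erase s,
      (χ : G → ℂ) x * (χ : G → ℂ) y * centralChar (χ : G → ℂ) g⁻¹) < 1 := by
    refine Valuation.map_sum_lt _ one_ne_zero fun χ hχ => ?_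
    have h6 : val M (centralChar (χ : G → ℂ) g⁻¹) < 1 := by
      refine (val_centralChar_le_one χ.2 _).lt_of_ne fun e => ?_
      have hB := isPBlock_blockOf (M := M) χ
      have h7 := blockDefect_le_of_val_centralChar hM hB (self_mem_blockOf hM χ) e
      rcases blockDefect_eq T hI hc hM hB with h8 | h8
      · have h9 := (blockDefect_eq_zero_iff ⟨_, self_mem_blockOf hM χ⟩).1 h8 χ
          (self_mem_blockOf hM χ)
        refine (Finset.mem_erase.1 hχ).1 (Subtype.ext (T.eq_steinberg_of_vanish hG χ.2 fun z hz => ?_))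
        exact χ.2.eq_zero_of_pow_dvd hp.out (cast_charDegree χ.2.isCharacter).symm
          (Nat.pow_succ_factorization_not_dvd Nat.card_pos.ne' hp.out)
          ((pow_dvd_pow p h9.ge).trans (Nat.ordProj_dvd _ _)) hz
      · exact h1 (inv_eq_one.1 (eq_one_of_full T hI hc hg' (h8 ▸ h7)))
    rw [map_mul, map_mul]
    exact (mul_le_of_le_one_left' (mul_le_one' (val_irr_le_one χ x) (val_irr_le_one χ y))).trans_lt h6
  rw [eq_neg_of_add_eq_zero_right h2, Valuation.map_neg, h4] at h5
  exact lt_irrefl _ h5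

end Cfsg.Agent.UL
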